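import Mathlib.Data.Nat.Notation
import Mathlib.Data.Nat.GCD.Basic
import Cfsg.Agent.R2.Spec.SD.Tree

/-!
# Small ranks (helper10): the finite search, the boolean functions
-/

set_option autoImplicit false

namespace Cfsg.Agent.R2.Spec.SD

/-- the primitive part -/
def KK (c q : ℕ) : ℕ :=
  match c with
  | 0 => (q ^ 4 + q ^ 3 + q ^ 2 + q + 1) / Nat.gcd 5 (q - 1)
  | 1 => (q ^ 4 - q ^ 3 + q ^ 2 - q + 1) / Nat.gcd 5 (q + 1)
  | 2 => (q ^ 4 + 1) / 2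
  | 3 => q ^ 4 - q ^ 2 + 1
  | _ => (q ^ 4 - q ^ 3 + q ^ 2 - q + 1) / Nat.gcd 5 (q + 1)

/-- the isolated number -/
def MM (c q : ℕ) : ℕ :=
  match c with
  | 0 => (q ^ 5 - 1) / 2
  | 1 => (q ^ 5 + 1) / 2
  | 2 => (q ^ 4 + 1) * (q + 1) / 2
  | 3 => (q ^ 6 + 1) / 2
  | _ => (q ^ 5 + 1) * (q - 1) / 2

/-- the second isolated number of the class `8` -/
def MN (c q : ℕ) : ℕ :=
  match c with
  | 2 => (q ^ 4 + 1) * (q - 1) / 2
  | _ => 0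

/-- a leaf -/
def lf (u P c q : ℕ) : Bool :=
  (P % KK c q != 0) || (MM c q % P != 0 && (Nat.beq (MN c q) 0 || MN c q % P != 0)) || (Nat.gcd u q != 1) ||
    (Nat.beq q 3 && Nat.beq P 41 && Nat.beq u 4)

/-- the search in a tree -/
def PT.ok (R u P : ℕ) : PT → Bool
  | .leaf c q => lf u P c q
  | .node n l r => Nat.blt (R * Nat.gcd P n) P || (PT.ok R u P l && PT.ok R u P r)

/-- all leaves -/
def PT.all (g : ℕ → ℕ → Bool) : PT → Bool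
  | .leaf c q => g c q
  | .node _ l r => PT.all g l && PT.all g r

/-- the nodes are multiples of the leaves -/
def PT.good : PT → Bool
  | .leaf _ _ => true
  | .node n l r => PT.all (fun c q => Nat.beq (n % KK c q) 0) l && PT.all (fun c q => Nat.beq (n % KK c q) 0) r &&
      PT.good l && PT.good r

/-- a leaf of a tree -/
def PT.mem (c q : ℕ) : PT → Bool
  | .leaf c' q' => Nat.beq c c' && Nat.beq q q'
  | .node _ l r => PT.mem c q l || PT.mem c q r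

/-- the values of the isolated numbers of `S` -/
def V (d u : ℕ) : List ℕ :=
  [(u ^ d - 1) / Nat.gcd 2 (u - 1), (u ^ d - 1) / Nat.gcd 4 (u ^ d - 1), (u ^ d - 1) / Nat.gcd (d + 1) (u - 1),
  (u ^ d - 1) / Nat.gcd (d + 1) (u + 1), (u ^ d + 1) / Nat.gcd 2 (u - 1), (u ^ d + 1) / Nat.gcd 4 (u ^ d + 1),
  (u ^ d + 1) / Nat.gcd (d + 1) (u + 1), (u ^ (d + 1) - 1) / (Nat.gcd (d + 1) (u - 1) * (u - 1)),
  (u ^ (d + 1) - 1) / (Nat.gcd (d + 1) (u + 1) * (u + 1)), (u ^ (d + 1) + 1) / (Nat.gcd (d + 1) (u + 1) * (u + 1)),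
  (u ^ (d - 1) + 1) * (u + 1) / Nat.gcd 4 (u ^ d - 1), (u ^ (d - 1) + 1) * (u - 1) / Nat.gcd 4 (u ^ d + 1),
  (u ^ (d - 1) - 1) * (u + 1) / Nat.gcd 4 (u ^ d + 1)]

/-- the values of rank three -/
def V3 (u : ℕ) : List ℕ :=
  [(u ^ 3 - 1) / Nat.gcd 2 (u - 1), (u ^ 3 + 1) / Nat.gcd 2 (u - 1), (u ^ 3 - 1) / Nat.gcd 4 (u - 1),
  (u ^ 3 + 1) / Nat.gcd 4 (u + 1), (u ^ 4 - 1) / (Nat.gcd 4 (u - 1) * (u - 1)),
  (u ^ 4 - 1) / (Nat.gcd 4 (u + 1) * (u + 1))]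

/-- the loop over `u = 2, ..., n + 1` -/
def lp (R : ℕ) (t : PT) (d : ℕ) : ℕ → Bool
  | 0 => true
  | n + 1 => (V d (n + 2)).all (fun P => t.ok R (n + 2) P) && lp R t d n

/-- the loop in rank three -/
def lp3 (R : ℕ) (t : PT) (s : ℕ) : ℕ → Bool
  | 0 => true
  | n + 1 => (V3 (n + 2 + s)).all (fun P => t.ok R (n + 2 + s) P) && lp3 R t s n

end Cfsg.Agent.R2.Spec.SD
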