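import Mathlib.Tactic

/-!
# Small ranks (helper10): both classes isolated in `S`, inequalities
-/

set_option autoImplicit false

namespace Cfsg.Agent.R2.Spec.SD

/-- dimension five, `S` symplectic -/
theorem five_C {q b C : ℤ} (hq : 256 ≤ q) (hb : b = 1) (hC : C ≤ 2)
    (h2 : q ^ 3 * (q - 1) ≤ 5 * b * (q + 1) ^ 2 + 13 * (q + 1) * C) : False := by
  subst hb
  have h3 : q ^ 3 * (q - 1) ≤ 5 * (q + 1) ^ 2 + 26 * (q + 1) := by nlinarith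
  obtain ⟨w, rfl⟩ : ∃ w, q = w + 256 := ⟨q - 256, by ring⟩
  have hw : 0 ≤ w := by omega
  nlinarith [pow_nonneg hw 2, pow_nonneg hw 3, pow_nonneg hw 4]

/-- dimension five, `S` orthogonal -/
theorem five_D {q u b C d R : ℤ} (hq : 256 ≤ q) (hu : 2 ≤ u) (hb : b ≤ u + 1) (hC0 : 0 ≤ C)
    (hC : d * C ≤ 2 * (u + 1) ^ 2) (hd : 1 ≤ d) (hd4 : d ≤ 4) (hR : u ^ 3 * (u - 1) ≤ d * R)
    (h1 : 2 * R ≤ b * (q + 1) ^ 2 + 5 * (q + 1) ^ 2 * C)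
    (h2 : q ^ 3 * (q - 1) ≤ 5 * b * (q + 1) ^ 2 + 13 * (q + 1) * C) : False := by
  obtain ⟨x, hx⟩ : ∃ x, x = q + 1 := ⟨_, rfl⟩
  obtain ⟨U, hU⟩ : ∃ U, U = u + 1 := ⟨_, rfl⟩
  have hx257 : 257 ≤ x := by omega
  have hU3 : 3 ≤ U := by omega
  rw [← hx] at h1 h2
  rw [← hU] at hb hC
  have hC2 : C ≤ 2 * U ^ 2 := by nlinarith
  have hx2 : 0 ≤ x ^ 2 := by positivity
  have e1 : 2 * (u ^ 3 * (u - 1)) ≤ x ^ 2 * (4 * U + 10 * U ^ 2) := by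
    have k1 : 2 * (d * R) ≤ x ^ 2 * (d * b + 5 * (d * C)) := by nlinarith
    have k2 : d * b ≤ 4 * U := by nlinarith
    have k3 : d * b + 5 * (d * C) ≤ 4 * U + 10 * U ^ 2 := by nlinarith
    have k4 := mul_le_mul_of_nonneg_left k3 hx2
    linarith
  have e2 : q ^ 3 * (q - 1) ≤ 5 * U * x ^ 2 + 26 * x * U ^ 2 := by
    have k1 : 5 * b * x ^ 2 ≤ 5 * U * x ^ 2 := by nlinarith
    have k2 : 13 * x * C ≤ 13 * x * (2 * U ^ 2) := mul_le_mul_of_nonneg_left hC2 (by omega)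
    linarith
  -- `10 U ≤ 23 x`
  have e3 : 10 * U ≤ 23 * x := by
    by_contra hcon
    push Not at hcon
    have k1 : 529 * x ^ 2 ≤ 100 * U ^ 2 := by nlinarith
    have k2 : 529 * (x ^ 2 * (4 * U + 10 * U ^ 2)) ≤ 100 * U ^ 2 * (4 * U + 10 * U ^ 2) := by
      have := mul_le_mul_of_nonneg_right k1 (show 0 ≤ 4 * U + 10 * U ^ 2 by positivity)
      linarith
    have hu' : u = U - 1 := by omega
    rw [hu'] at e1
    have k3 : 529 * (2 * ((U - 1) ^ 3 * (U - 1 - 1))) ≤ 100 * U ^ 2 * (4 * U + 10 * U ^ 2) := by linarith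
    obtain ⟨w, rfl⟩ : ∃ w, U = w + 591 := ⟨U - 591, by ring⟩
    have hw : 0 ≤ w := by omega
    nlinarith [pow_nonneg hw 2, pow_nonneg hw 3, pow_nonneg hw 4]
  have e4 : 100 * (5 * U * x ^ 2 + 26 * x * U ^ 2) ≤ 14904 * x ^ 3 := by
    have k1 : 10 * U * x ^ 2 ≤ 23 * x * x ^ 2 := mul_le_mul_of_nonneg_right e3 hx2
    have k2 : 100 * U ^ 2 ≤ 529 * x ^ 2 := by nlinarith
    have k3 : 100 * U ^ 2 * x ≤ 529 * x ^ 2 * x := mul_le_mul_of_nonneg_right k2 (by omega)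
    nlinarith
  have e5 : 100 * (q ^ 3 * (q - 1)) ≤ 14904 * (q + 1) ^ 3 := by
    rw [← hx]
    linarith
  obtain ⟨w, rfl⟩ : ∃ w, q = w + 256 := ⟨q - 256, by ring⟩
  have hw : 0 ≤ w := by omega
  nlinarith [pow_nonneg hw 2, pow_nonneg hw 3, pow_nonneg hw 4]

/-- dimension five, `S` linear -/
theorem five_A {q u b C d R : ℤ} (hq : 256 ≤ q) (hu : 2 ≤ u) (hb : b ≤ u + 1) (hC0 : 0 ≤ C)
    (hC : d * C ≤ u + 1) (hd : 1 ≤ d) (hdu : d ≤ u + 1)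
    (hR : (d ≤ 4 ∧ u ^ 2 * (u - 1) ≤ d * R) ∨ u ^ 3 * (u - 1) ≤ d * R)
    (h1 : 2 * R ≤ b * (q + 1) ^ 2 + 5 * (q + 1) ^ 2 * C)
    (h2 : q ^ 3 * (q - 1) ≤ 5 * b * (q + 1) ^ 2 + 13 * (q + 1) * C) : False := by
  obtain ⟨x, hx⟩ : ∃ x, x = q + 1 := ⟨_, rfl⟩
  obtain ⟨U, hU⟩ : ∃ U, U = u + 1 := ⟨_, rfl⟩
  have hx257 : 257 ≤ x := by omega
  have hU3 : 3 ≤ U := by omega
  rw [← hx] at h1 h2
  rw [← hU] at hb hC hdu
  have hC2 : C ≤ U := by nlinarith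
  have hx2 : 0 ≤ x ^ 2 := by positivity
  have e1 : 2 * (d * R) ≤ x ^ 2 * (U * (d + 5)) := by
    have k1 : 2 * (d * R) ≤ x ^ 2 * (d * b + 5 * (d * C)) := by nlinarith
    have k3 : d * b + 5 * (d * C) ≤ U * (d + 5) := by nlinarith
    have k4 := mul_le_mul_of_nonneg_left k3 hx2
    linarith
  have e2 : q ^ 3 * (q - 1) ≤ U * (x * (5 * x + 13)) := by
    have k1 : 5 * b * x ^ 2 ≤ 5 * U * x ^ 2 := by nlinarith
    have k2 : 13 * x * C ≤ 13 * x * U := mul_le_mul_of_nonneg_left hC2 (by omega)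
    nlinarith
  -- `x ^ 2 ≤ 6 U`
  have e3 : x ^ 2 ≤ 6 * U := by
    have k1 : x * (5 * x + 13) * x ^ 2 ≤ 6 * (q ^ 3 * (q - 1)) := by
      rw [hx]
      obtain ⟨w, rfl⟩ : ∃ w, q = w + 256 := ⟨q - 256, by ring⟩
      have hw : 0 ≤ w := by omega
      nlinarith [pow_nonneg hw 2, pow_nonneg hw 3, pow_nonneg hw 4]
    have k2 : x * (5 * x + 13) * x ^ 2 ≤ x * (5 * x + 13) * (6 * U) := by nlinarith
    exact le_of_mul_le_mul_left k2 (by positivity)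
  have hU1000 : 11000 ≤ U := by nlinarith
  have hu' : u = U - 1 := by omega
  obtain ⟨w, hw'⟩ : ∃ w, U = w + 11000 := ⟨U - 11000, by ring⟩
  have hw : 0 ≤ w := by omega
  rcases hR with ⟨hd4, hR⟩ | hR
  · have k1 : 2 * (u ^ 2 * (u - 1)) ≤ 9 * (x ^ 2 * U) := by
      have : x ^ 2 * (U * (d + 5)) ≤ x ^ 2 * (U * 9) := by
        have : U * (d + 5) ≤ U * 9 := by nlinarith
        exact mul_le_mul_of_nonneg_left this hx2
      linarith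
    have k2 : x ^ 2 * U ≤ 6 * U * U := mul_le_mul_of_nonneg_right e3 (by omega)
    rw [hu', hw'] at k1
    rw [hw'] at k2
    have k3 : 2 * ((w + 11000 - 1) ^ 2 * (w + 11000 - 1 - 1)) ≤ 54 * (w + 11000) ^ 2 := by linarith
    nlinarith [pow_nonneg hw 2, pow_nonneg hw 3]
  · have k1 : 2 * (u ^ 3 * (u - 1)) ≤ 6 * U * (U * (U + 5)) := by
      have k2 : x ^ 2 * (U * (d + 5)) ≤ x ^ 2 * (U * (U + 5)) := by
        have : U * (d + 5) ≤ U * (U + 5) := by nlinarith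
        exact mul_le_mul_of_nonneg_left this hx2
      have k3 : x ^ 2 * (U * (U + 5)) ≤ 6 * U * (U * (U + 5)) := mul_le_mul_of_nonneg_right e3 (by positivity)
      linarith
    rw [hu', hw'] at k1
    nlinarith [pow_nonneg hw 2, pow_nonneg hw 3, pow_nonneg hw 4]

/-- dimension six, `S` symplectic -/
theorem six_C {q b C : ℤ} (hq : 256 ≤ q) (hb : b = 1) (hC : C ≤ 2)
    (h2 : q ^ 3 * (q - 1) ≤ 5 * (q + 1) ^ 2 * (b + C)) : False := by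
  subst hb
  have h3 : q ^ 3 * (q - 1) ≤ 15 * (q + 1) ^ 2 := by nlinarith [pow_pos (show 0 < q + 1 by omega) 2]
  obtain ⟨w, rfl⟩ : ∃ w, q = w + 256 := ⟨q - 256, by ring⟩
  have hw : 0 ≤ w := by omega
  nlinarith [pow_nonneg hw 2, pow_nonneg hw 3, pow_nonneg hw 4]

/-- dimension six, `S` orthogonal or linear -/
theorem six_DA {q u b b2 C d R : ℤ} (hq : 256 ≤ q) (hu : 2 ≤ u) (hb : b ≤ u + 1) (hb2 : b2 ≤ u + 1) (hC0 : 0 ≤ C)
    (hC : d * C ≤ 2 * (u + 1) ^ 2) (hd : 1 ≤ d) (hdu : d ≤ u + 2) (hR : u ^ 5 * (u - 1) ≤ d * R)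
    (h1 : 2 * R ≤ b2 * (q + 1) ^ 2 + (q + 1) ^ 3 * C)
    (h2 : q ^ 3 * (q - 1) ≤ 5 * (q + 1) ^ 2 * (b + C)) : False := by
  obtain ⟨x, hx⟩ : ∃ x, x = q + 1 := ⟨_, rfl⟩
  obtain ⟨U, hU⟩ : ∃ U, U = u + 1 := ⟨_, rfl⟩
  have hx257 : 257 ≤ x := by omega
  have hU3 : 3 ≤ U := by omega
  rw [← hx] at h1 h2
  rw [← hU] at hb hb2 hC
  have hdU : d ≤ U + 1 := by omega
  have hC2 : C ≤ 2 * U ^ 2 := by nlinarith
  have hx2 : 0 ≤ x ^ 2 := by positivity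
  have hx3 : 0 ≤ x ^ 3 := by positivity
  have e1 : 2 * (u ^ 5 * (u - 1)) ≤ x ^ 2 * ((U + 1) * U) + 2 * x ^ 3 * U ^ 2 := by
    have k1 : 2 * (d * R) ≤ x ^ 2 * (d * b2) + x ^ 3 * (d * C) := by nlinarith
    have k2 : d * b2 ≤ (U + 1) * U := by nlinarith
    have k3 := mul_le_mul_of_nonneg_left k2 hx2
    have k4 := mul_le_mul_of_nonneg_left hC hx3
    linarith
  have e2 : q ^ 3 * (q - 1) ≤ 5 * x ^ 2 * (U + 2 * U ^ 2) := by
    have : b + C ≤ U + 2 * U ^ 2 := by linarith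
    have := mul_le_mul_of_nonneg_left this (show 0 ≤ 5 * x ^ 2 by positivity)
    linarith
  -- `x ≤ 10 U / 3`
  have e3 : 3 * x ≤ 10 * U := by
    by_contra hcon
    push Not at hcon
    have k0 : 10 * U ≤ 3 * x - 1 := by omega
    have k1 : 100 * (U + 2 * U ^ 2) ≤ 10 * (3 * x) + 2 * (3 * x) ^ 2 := by nlinarith
    have k2 : 100 * (q ^ 3 * (q - 1)) ≤ 5 * x ^ 2 * (10 * (3 * x) + 2 * (3 * x) ^ 2) := by
      have := mul_le_mul_of_nonneg_left k1 (show 0 ≤ 5 * x ^ 2 by positivity)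
      linarith
    rw [hx] at k2
    obtain ⟨w, rfl⟩ : ∃ w, q = w + 256 := ⟨q - 256, by ring⟩
    have hw : 0 ≤ w := by omega
    nlinarith [pow_nonneg hw 2, pow_nonneg hw 3, pow_nonneg hw 4]
  have hU77 : 78 ≤ U := by omega
  have hu' : u = U - 1 := by omega
  rw [hu'] at e1
  have e4 : 9 * x ^ 2 ≤ 100 * U ^ 2 := by nlinarith
  have e5 : 27 * x ^ 3 ≤ 1000 * U ^ 3 := by
    have k1 : 9 * x ^ 2 * (3 * x) ≤ 100 * U ^ 2 * (10 * U) :=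
      mul_le_mul e4 e3 (by omega) (by positivity)
    nlinarith
  have e6 : 27 * (2 * ((U - 1) ^ 5 * (U - 1 - 1))) ≤ 300 * U ^ 2 * ((U + 1) * U) + 2000 * U ^ 3 * U ^ 2 := by
    have k1 : 27 * (x ^ 2 * ((U + 1) * U)) ≤ 300 * U ^ 2 * ((U + 1) * U) := by
      have := mul_le_mul_of_nonneg_right e4 (show 0 ≤ 3 * ((U + 1) * U) by positivity)
      linarith
    have k2 : 27 * x ^ 3 * (2 * U ^ 2) ≤ 1000 * U ^ 3 * (2 * U ^ 2) :=
      mul_le_mul_of_nonneg_right e5 (by positivity)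
    linarith
  obtain ⟨w, rfl⟩ : ∃ w, U = w + 78 := ⟨U - 78, by ring⟩
  have hw : 0 ≤ w := by omega
  nlinarith [pow_nonneg hw 2, pow_nonneg hw 3, pow_nonneg hw 4, pow_nonneg hw 5, pow_nonneg hw 6]

end Cfsg.Agent.R2.Spec.SD
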