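import Cfsg.Agent.R2.Spec.SD.Chk

/-!
# Small ranks (helper10): the finite search in rank three
-/

set_option autoImplicit false

namespace Cfsg.Agent.R2.Spec.SD

theorem run3 : lp3 640 tree5 10950 5350 = true := by decide +kernel

end Cfsg.Agent.R2.Spec.SD
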