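import Cfsg.Agent.R2.Spec.SD.Chk

/-!
# Small ranks (helper10): the finite search, the tables
-/

set_option autoImplicit false

namespace Cfsg.Agent.R2.Spec.SD

/-- the bounds of `u`, dimension five -/
def tab5 : List (ℕ × ℕ) := [(4, 1525), (5, 365), (6, 140), (7, 70), (8, 42), (9, 28), (10, 20), (11, 15), (12, 12), (13, 10), (14, 8),
  (15, 7), (16, 6), (17, 6), (18, 5), (19, 5), (20, 4), (21, 4), (22, 4), (23, 3), (24, 3), (25, 3), (26, 3),
  (27, 3), (28, 3), (29, 2), (30, 2), (31, 2), (32, 2), (33, 2), (34, 2), (35, 2), (36, 2), (37, 2), (38, 2),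
  (39, 2), (40, 2), (41, 2), (42, 2), (43, 2), (44, 2), (45, 2)]

/-- the bounds of `u`, dimension six -/
def tab6 : List (ℕ × ℕ) := [(5, 1105), (6, 352), (7, 155), (8, 83), (9, 51), (10, 35), (11, 25), (12, 19), (13, 15), (14, 13), (15, 11),
  (16, 9), (17, 8), (18, 7), (19, 6), (20, 6), (21, 5), (22, 5), (23, 4), (24, 4), (25, 4), (26, 4), (27, 3),
  (28, 3), (29, 3), (30, 3), (31, 3), (32, 3), (33, 3), (34, 2), (35, 2), (36, 2), (37, 2), (38, 2), (39, 2),
  (40, 2), (41, 2), (42, 2), (43, 2), (44, 2), (45, 2), (46, 2), (47, 2), (48, 2), (49, 2), (50, 2), (51, 2),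
  (52, 2), (53, 2)]

theorem tab5_run : tab5.all (fun p => lp 640 tree5 p.1 (p.2 - 1)) = true := by decide +kernel

theorem tab6_run : tab6.all (fun p => lp 162560 tree6 p.1 (p.2 - 1)) = true := by decide +kernel

theorem tab5_bd : tab5.all (fun p => Nat.blt (2 * (p.1 + 1) * 541216080128) ((p.2 + 1) ^ p.1)) = true := by
  decide +kernel

theorem tab6_bd : tab6.all (fun p => Nat.blt (2 * (p.1 + 1) * 137470998445313) ((p.2 + 1) ^ p.1)) = true := by
  decide +kernel

theorem good5 : tree5.good = true := by decide +kernel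

theorem good6 : tree6.good = true := by decide +kernel

theorem mem5 : ∀ c < 3, ∀ k < 127, tree5.mem c (2 * k + 3) = true := by decide +kernel

theorem mem6 : ∀ c < 2, ∀ k < 127, tree6.mem (c + 3) (2 * k + 3) = true := by decide +kernel

theorem rat5 : ∀ c < 3, ∀ k < 127, MM c (2 * k + 3) ≤ 640 * KK c (2 * k + 3) ∧
    MN c (2 * k + 3) ≤ 640 * KK c (2 * k + 3) ∧ MM c (2 * k + 3) ≤ 541216080128 ∧ MN c (2 * k + 3) ≤ 541216080128 ∧
    0 < MM c (2 * k + 3) ∧ 0 < KK c (2 * k + 3) := by decide +kernel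

theorem rat6 : ∀ c < 2, ∀ k < 127, MM (c + 3) (2 * k + 3) ≤ 162560 * KK (c + 3) (2 * k + 3) ∧
    MM (c + 3) (2 * k + 3) ≤ 137470998445313 ∧ 0 < MM (c + 3) (2 * k + 3) ∧ 0 < KK (c + 3) (2 * k + 3) := by decide +kernel

end Cfsg.Agent.R2.Spec.SD
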